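import Cfsg.Agent.H436.L34.Frame
import Cfsg.Agent.H288.L34.BrkDef

/-!
# S5917: the map `Φ` of a given `φ` in frame coordinates (helper939)
-/

set_option autoImplicit false
set_option linter.unusedSectionVars false
set_option maxRecDepth 100000

namespace Cfsg.Agent.H939.L34

open Matrix Cfsg Cfsg.Lie Cfsg.Lie.ChevalleyDatum Cfsg.Agent.H691.L34
open Cfsg.Agent.H436.L34
open Cfsg.Agent.H939.L64

variable {F : Type} [Field F] [Fintype F]

/-- **`Φ` for a given `φ`** -/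
theorem exists_Phi_z (hF : Fintype.card F = 4) (ι : F →+* KK) (f : G3 F →* E2) {b : Bool} {φ : M3 F → L2}
    (h1 : ∀ X Y, HF X → HF Y → φ (X + Y) = φ X + φ Y) (h0 : ∀ X, HF X → φ X = 0 → X = 0)
    (h3 : ∀ (g : G3 F) X, HF X → a2 (f g) (φ X) = φ (hact (tw b g) X)) (z : ↥(chevE8.group KK)) :
    ∃ Φ : Matrix (Fin 3) (Fin 3) KK →ₗ[KK] LK, Function.Injective Φ ∧
      (∀ X, HF X → Φ (X.map ι) = aK z⁻¹ (up (φ X))) ∧
      (∀ X, Φ (X.map fun a => a ^ 2).transpose = aK z⁻¹ (fr (aK z (Φ X)))) ∧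
      (∀ (g : G3 F) X, aK (z⁻¹ * em (f g) * z) (Φ X) =
        Φ ((tw b g : M3 F).map ι * X * (ct (tw b g : M3 F)).map ι)) := by
  obtain ⟨Φ, i1, i2, i3, i4, i5⟩ := exists_Phi (K := KK) hF ι h1 h0
  have hz : ∀ v : LK, aK z (aK z⁻¹ v) = v := fun v => by rw [← aK_mul', mul_inv_cancel, aK_one']
  refine ⟨(ln z⁻¹).comp Φ, ?_, ?_, ?_, ?_⟩
  · intro X Y hXY
    have e : aK z⁻¹ (Φ X) = aK z⁻¹ (Φ Y) := hXY
    have e2 := congrArg (aK z) e
    rw [hz, hz] at e2
    exact i1 e2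
  · intro X hX
    rw [LinearMap.comp_apply, ln_apply, i2 X hX, jj_up]
  · intro X
    rw [LinearMap.comp_apply, LinearMap.comp_apply, ln_apply, ln_apply, hz]
    congr 1
    funext i
    exact i3 X i
  · intro g X
    rw [LinearMap.comp_apply, ln_apply, mul_assoc, aK_mul', aK_mul', hz]
    have e := i4 (fun v => a2 (f g) v) (ln (em (f g))) (fun v => by rw [ln_apply, jj_up, aK_em_up, jj_up]) (tw b g)
      (fun X hX => h3 g X hX) X
    rw [ln_apply] at e
    rw [e]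
    rfl

end Cfsg.Agent.H939.L34
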